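import Cfsg.Agent.S0904
import Cfsg.Agent.CharBasics.RealOddDegree
import Cfsg.Agent.CharBasics.Induced

/-!
Real characters over characters of two-defect zero.
-/

set_option autoImplicit false
set_option linter.style.haveILetI false
open Cfsg CfsgLib CfsgLib.CharBasics CfsgLib.BrauerInd CfsgLib.RealOdd
open scoped ComplexConjugate

namespace CfsgLib.RealPDeg

universe u

variable {G : Type u} [Group G] [Fintype G]

/-- Over a character of two-defect zero conjugate to its complex conjugate there is a real character. -/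
theorem exists_real_over (N : Subgroup G) [N.Normal] [Fintype N] (φ : IrrCharacter N)
    (hdef : 2 ^ (Nat.card N).factorization 2 ∣ charDegree (φ : N → ℂ)) (g : G)
    (hg : Clifford.conjFun g (φ : N → ℂ) = fun n => conj ((φ : N → ℂ) n)) :
    ∃ χ : IrrCharacter G, IsReal (χ : G → ℂ) ∧
      classInner (fun n : N => (χ : G → ℂ) n) (φ : N → ℂ) ≠ 0 := by
  classical
  haveI : Fintype (IrrCharacter G) := @Fintype.ofFinite _ finite_irrCharacter
  haveI : Fact (Nat.Prime 2) := ⟨Nat.prime_two⟩
  obtain ⟨P⟩ : Nonempty (Sylow 2 G) := inferInstance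
  haveI : Fintype (P : Subgroup G) := Fintype.ofFinite _
  have hφc := isCharacter_of_irr φ.2
  set Φ := indFun N (φ : N → ℂ) with hΦ
  have hcl := fun χ : IrrCharacter G => CharBasics.isClassFunction (isCharacter_of_irr χ.2)
  choose m hm using fun χ : IrrCharacter G =>
    classInner_characters_nat (isCharacter_restrict (isCharacter_of_irr χ.2) N) hφc
  choose a ha using fun χ : IrrCharacter G =>
    classInner_characters_nat (isCharacter_restrict (isCharacter_of_irr χ.2) (P : Subgroup G))
      (isCharacter_of_irr (oneChar : IrrCharacter (P : Subgroup G)).2)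
  have hmΦ : ∀ χ : IrrCharacter G, classInner Φ (χ : G → ℂ) = (m χ : ℂ) := fun χ => by
    rw [hΦ, CharBasics.classInner_indFun N _ (hcl χ), CharBasics.classInner_comm]
    change conj (classInner (fun n : N => (χ : G → ℂ) n) (φ : N → ℂ)) = _
    rw [hm χ, Complex.conj_natCast]
  -- the parity count
  set vN := (Nat.card N).factorization 2 with hvN
  obtain ⟨r, hr⟩ := hdef
  set k := N.index.factorization 2 with hkdef
  set o := N.index / 2 ^ k with hodef
  have hk : N.index = 2 ^ k * o := (Nat.ordProj_mul_ordCompl_eq_self N.index 2).symm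
  have ho0 : ¬ 2 ∣ o := Nat.not_dvd_ordCompl Nat.prime_two Subgroup.index_ne_zero_of_finite
  have hrodd : Odd r := by
    by_contra hev
    rw [Nat.not_odd_iff_even] at hev
    obtain ⟨s, rfl⟩ := hev
    have h := degree_dvd φ
    rw [hr] at h
    have h' : 2 ^ (vN + 1) ∣ Nat.card N := Dvd.dvd.trans ⟨s, by ring⟩ h
    have := (Nat.prime_two.pow_dvd_iff_le_factorization Nat.card_pos.ne').1 h'
    omega
  have hcount : ∑ χ : IrrCharacter G, m χ * a χ = o * r := by
    have hexp := classFun_expand (CharBasics.isClassFunction (CharBasics.isCharacter_indFun N hφc))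
    have h1 : classInner (fun x : (P : Subgroup G) => Φ x) (fun _ => 1) = ((∑ χ, m χ * a χ : ℕ) : ℂ) := by
      have he : (fun x : (P : Subgroup G) => Φ x) =
          ∑ χ : IrrCharacter G, (m χ : ℂ) • fun x : (P : Subgroup G) => (χ : G → ℂ) x := by
        funext x
        rw [show Φ x = _ from congrFun hexp x]
        simp only [Finset.sum_apply, Pi.smul_apply, smul_eq_mul, ← hΦ, hmΦ]
      rw [he, classInner_sum_left, Nat.cast_sum]
      refine Finset.sum_congr rfl fun χ _ => ?_
      rw [classInner_smul_left, Nat.cast_mul]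
      congr 1
      exact ha χ
    have h2 : classInner (fun x : (P : Subgroup G) => Φ x) (fun _ => 1) = ((o * r : ℕ) : ℂ) := by
      rw [classInner_eq, Finset.sum_eq_single (1 : (P : Subgroup G))]
      · rw [Subgroup.coe_one, hΦ, indFun_apply_one, apply_one hφc, hr, hk, map_one, mul_one,
          P.card_eq_multiplicity, ← N.card_mul_index,
          Nat.factorization_mul Nat.card_pos.ne' Subgroup.index_ne_zero_of_finite, Finsupp.add_apply,
          ← hvN, ← hkdef, pow_add]
        push_cast
        field_simp
      · intro x _ hx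
        rw [hΦ, indFun, Finset.sum_eq_zero, mul_zero, zero_mul]
        intro y _
        by_cases hy : y⁻¹ * ((x : (P : Subgroup G)) : G) * y ∈ N
        · rw [show y⁻¹ * ((x : (P : Subgroup G)) : G) * y = ((⟨_, hy⟩ : N) : G) from rfl, extendByZero_coe]
          refine Cfsg.Agent.S0904.vanish_of_full 2 φ (hr ▸ dvd_mul_right _ _) _ ?_
          rw [← Subgroup.orderOf_coe]
          change 2 ∣ orderOf (y⁻¹ * ((x : (P : Subgroup G)) : G) * y)
          rw [show y⁻¹ * (x : G) * y = (MulAut.conj y⁻¹) (x : G) by simp,
            MulEquiv.orderOf_eq, Subgroup.orderOf_coe]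
          obtain ⟨j, hj⟩ := IsPGroup.iff_orderOf.1 P.isPGroup' x
          rw [hj]
          refine dvd_pow_self 2 fun h0 => hx ?_
          rw [h0, pow_zero, orderOf_eq_one_iff] at hj
          exact hj
        · exact extendByZero_of_not_mem N _ hy
      · exact fun h => absurd (Finset.mem_univ _) h
    exact_mod_cast h1.symm.trans h2
  -- a real character with odd contributions
  let σ : IrrCharacter G → IrrCharacter G := fun β => ⟨fun g => conj ((β : G → ℂ) g), isIrr_star β.2⟩
  have hinner_conj : ∀ {H : Type u} [Group H] [Fintype H] (f f' : H → ℂ),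
      classInner (fun x => conj (f x)) f' = conj (classInner f (fun x => conj (f' x))) := by
    intro H _ _ f f'
    simp [classInner_eq, map_sum]
  have hσa : ∀ χ, a (σ χ) = a χ := by
    intro χ
    have h : classInner (fun x : (P : Subgroup G) => conj ((χ : G → ℂ) x)) (fun _ => 1) = (a (σ χ) : ℂ) :=
      ha (σ χ)
    rw [hinner_conj] at h
    simp only [map_one] at h
    have h' : classInner (fun x : (P : Subgroup G) => (χ : G → ℂ) x) (fun _ => 1) = (a χ : ℂ) := ha χ
    rw [h', Complex.conj_natCast] at h
    exact (Nat.cast_injective h).symm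
  have hσm : ∀ χ, m (σ χ) = m χ := by
    intro χ
    have h : classInner (fun n : N => conj ((χ : G → ℂ) n)) (φ : N → ℂ) = (m (σ χ) : ℂ) := hm (σ χ)
    rw [hinner_conj, ← hg] at h
    conv at h => lhs; arg 2; rw [← Clifford.conjFun_restrict (hcl χ) g]
    rw [Clifford.classInner_conjFun] at h
    have h' : classInner (fun n : N => (χ : G → ℂ) n) (φ : N → ℂ) = (m χ : ℂ) := hm χ
    rw [h', Complex.conj_natCast] at h
    exact (Nat.cast_injective h).symm
  obtain ⟨χ, hfix, hodd⟩ := fixed_odd_invol σ (fun β => Subtype.ext (funext fun g => Complex.conj_conj _))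
    (fun χ => m χ * a χ) (fun χ => by show _ * _ = _; rw [hσm, hσa]) (hcount ▸ (Nat.odd_iff.2 (Nat.two_dvd_ne_zero.1 ho0)).mul hrodd)
  rw [Nat.odd_mul] at hodd
  have hreal : ∀ x, ((χ : G → ℂ) x).im = 0 := fun x =>
    Complex.conj_eq_iff_im.1 (congrFun (congrArg Subtype.val hfix) x)
  refine ⟨χ, hreal, ?_⟩
  rw [show classInner (fun n : N => (χ : G → ℂ) n) (φ : N → ℂ) = (m χ : ℂ) from hm χ]
  exact Nat.cast_ne_zero.2 hodd.1.pos.ne'

end CfsgLib.RealPDeg
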